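import Cfsg.Agent.Fgs2.Sc4

/-! Simple groups with a Sylow `p`-normalizer of order `2p`: basic facts and fixed points of
involutions in an action of degree `3p`. -/

set_option autoImplicit false
set_option linter.unusedSectionVars false

namespace CF.Deg3p
open Subgroup Cfsg CF.BG CF.Fgs1 CF.Fgs2.Sc MulAction
open scoped Pointwise

variable {G : Type*} [Group G] {p : ℕ}

theorem not_burn [Finite G] [IsSimpleGroup G] (hG : ¬ IsMulCommutative G) {r : ℕ} [Fact r.Prime]
    (P : Sylow r G) (h0 : (P : Subgroup G) ≠ ⊥)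
    (h : normalizer ((P : Subgroup G) : Set G) ≤ centralizer ((P : Subgroup G) : Set G)) : False := by
  have c := MonoidHom.ker_transferSylow_isComplement' P h
  rcases IsSimpleGroup.eq_bot_or_eq_top_of_normal (MonoidHom.transferSylow P h).ker
    inferInstance with e | e
  · rw [e, isComplement'_bot_left] at c
    refine hG ⟨⟨fun a b => ?_⟩⟩
    have ha : a ∈ centralizer ((P : Subgroup G) : Set G) := h (le_normalizer (c ▸ mem_top a))
    exact (ha b (by rw [c]; exact mem_top b)).symm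
  · rw [e, isComplement'_top_left] at c
    exact h0 c

/-- arithmetic shadow of the hypothesis -/
structure D (G : Type*) [Group G] (p : ℕ) : Prop where
  pp : p.Prime
  p3 : 3 < p
  ord : ∀ x : G, p ∣ orderOf x → orderOf x = p
  card : ∃ k : ℕ, Nat.card G = k * p ∧ (p : ℤ) ∣ k - 2

theorem D.congr {H : Type*} [Group H] (h : D G p) (e : G ≃* H) : D H p :=
  ⟨h.pp, h.p3, fun x hx => by
    have := h.ord (e.symm x) (by rwa [MulEquiv.orderOf_eq])
    rwa [MulEquiv.orderOf_eq] at this, by rw [← Nat.card_congr e.toEquiv]; exact h.card⟩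

theorem card_P [Finite G] (hp : p.Prime) (h3 : 3 < p) (hd : p ∣ Nat.card G) (P : Sylow p G)
    (hN : ♯(𝐍 (P : Subgroup G)) = 2 * p) : ♯(P : Subgroup G) = p := by
  have := Fact.mk hp
  obtain ⟨c, hc⟩ := P.dvd_card_of_dvd_card hd
  obtain ⟨n, hn⟩ := P.isPGroup'.exists_card_eq
  have h1 : ♯(P : Subgroup G) ∣ 2 * p := hN ▸ card_dvd_of_le le_normalizer
  rw [hc, mul_comm] at h1
  rcases (Nat.dvd_prime Nat.prime_two).1 (Nat.dvd_of_mul_dvd_mul_right hp.pos h1) with e | e
  · rw [hc, e, mul_one]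
  · have : 2 ∣ p ^ n := by rw [← hn, hc, e]; exact dvd_mul_left _ _
    have := (Nat.prime_dvd_prime_iff_eq Nat.prime_two hp).1 (Nat.prime_two.dvd_of_dvd_pow this)
    omega

theorem sc_P [Fintype G] [IsSimpleGroup G] (hG : ¬ IsMulCommutative G) (hp : p.Prime)
    (P : Sylow p G) (hP : ♯(P : Subgroup G) = p)
    (hN : ♯(𝐍 (P : Subgroup G)) = 2 * p) : SC (P : Subgroup G) 2 := by
  have := Fact.mk hp
  have nb : (P : Subgroup G) ≠ ⊥ := fun e => by
    rw [e, card_bot] at hP; exact hp.one_lt.ne hP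
  refine ⟨fun u hu u1 => ?_, by rw [hN, hP], nb, dvd_rfl⟩
  have z : zpowers u = P := by
    refine eq_of_le_of_card_ge (zpowers_le.2 hu) ?_
    have := orderOf_dvd_card' hu
    rw [hP] at this ⊢
    rw [Nat.card_zpowers, ((Nat.dvd_prime hp).1 this).resolve_left (by simpa)]
  have c : 𝐂₁ u = 𝐂 (P : Subgroup G) := by
    rw [← z, zpowers_eq_closure, centralizer_closure]
  have l1 : (P : Subgroup G) ≤ 𝐂₁ u := by
    rw [← z, zpowers_le]; exact mem_cent1.2 rfl
  have l2 : 𝐂₁ u ≤ 𝐍 (P : Subgroup G) := c ▸ centralizer_le_normalizer _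
  obtain ⟨a, ha⟩ := card_dvd_of_le l1
  have h1 := card_dvd_of_le l2
  rw [ha, hN, hP, mul_comm] at h1
  rcases (Nat.dvd_prime Nat.prime_two).1 (Nat.dvd_of_mul_dvd_mul_right hp.pos h1) with e | e
  · exact (eq_of_le_of_card_ge l1 (by rw [ha, e, mul_one])).symm
  · exact (not_burn hG P nb (by
      rw [← c, eq_of_le_of_card_ge l2 (by rw [ha, e, hN, hP, mul_comm])])).elim

variable [Fintype G] {P : Subgroup G}

theorem d_of_sc (hp : p.Prime) (h3 : 3 < p) (h : SC P 2) (hP : ♯P = p) : D G p := by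
  refine ⟨hp, h3, fun x hx => ?_, P.index, by rw [← hP, P.index_mul_card], ?_⟩
  · have o : orderOf (x ^ (orderOf x / p)) = p := orderOf_pow_orderOf_div (orderOf_pos x).ne' hx
    have c := h.card_cent (h.mem_of_prime (o ▸ hp) (by rw [o, hP]))
    have : orderOf x ∣ p := by
      rw [← hP, ← c]
      exact orderOf_dvd_card' (mem_cent1.2 (by group))
    exact Nat.dvd_antisymm this hx
  · simpa [hP] using h.dvd_index

theorem isConj_inv [IsSimpleGroup G] (h3 : 3 < p) (h : SC P 2) (hP : ♯P = p) {s t : G}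
    (hs : orderOf s = 2) (ht : orderOf t = 2) : IsConj s t := by
  obtain ⟨ε, x, χ, ψ, ψ', E⟩ := exists_exc h.tor h.nb (by omega)
  exact E.isConj h (mem_Iv.2 hs) (mem_Iv.2 ht)

variable {Ω : Type*} [Finite Ω] [MulAction G Ω]

theorem fix_le [IsSimpleGroup G] [IsPretransitive G Ω] (hp : p.Prime) (h3 : 3 < p) (h : SC P 2)
    (hP : ♯P = p) (hΩ : Nat.card Ω = 3 * p) :
    ∃ c ≤ 3, ∀ s : G, orderOf s = 2 → (fixedBy Ω s).ncard = c := by
  obtain ⟨t, n, o⟩ := h.exists_invol
  have fr : ∀ y ∈ P, ∀ a : Ω, y • a = a → y = 1 := fun y hy a e => by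
    by_contra y1
    have oy : orderOf y = p :=
      ((Nat.dvd_prime hp).1 (hP ▸ orderOf_dvd_card' hy)).resolve_left (by simpa)
    obtain ⟨c, hc⟩ : p ∣ ♯(stabilizer G a) := oy ▸ orderOf_dvd_card' (mem_stabilizer_iff.2 e)
    have a1 := (stabilizer G a).index_mul_card
    rw [index_stabilizer_of_transitive, hΩ, hc, ← P.index_mul_card, hP] at a1
    refine h.not_dvd_index hp (hP ▸ dvd_rfl) ⟨3 * c, ?_⟩
    exact Nat.eq_of_mul_eq_mul_right hp.pos (by rw [← a1]; ring)
  refine ⟨(fixedBy Ω t).ncard, ?_, fun s hs => ?_⟩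
  · have inj : Function.Injective fun x : fixedBy Ω t × P => (x.2 : G) • (x.1 : Ω) := by
      rintro ⟨⟨a, ha⟩, y, hy⟩ ⟨⟨b, hb⟩, z, hz⟩ e
      have e1 : (z⁻¹ * y) • a = b := by
        rw [mul_smul, inv_smul_eq_iff]; exact e
      have hw := mul_mem (inv_mem hz) hy
      set w := z⁻¹ * y with hw'
      have e2 : (w * w) • a = a := by
        have := mem_fixedBy.1 hb
        rw [← e1, ← mul_smul, h.inverts o n hw, mul_smul, mem_fixedBy.1 ha, inv_smul_eq_iff,
          ← mul_smul] at this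
        exact this.symm
      have e3 := fr _ (mul_mem hw hw) _ e2
      have e4 : w = 1 := by
        have d1 : orderOf w ∣ 2 := orderOf_dvd_of_pow_eq_one (by rw [sq, e3])
        rcases (Nat.dvd_prime Nat.prime_two).1 d1 with d | d
        · simpa using d
        · exact (h.odd (d ▸ orderOf_dvd_card' hw)).elim
      have e5 : z = y := inv_mul_eq_one.1 e4
      rw [e4, one_smul] at e1
      subst e1 e5
      rfl
    have := Nat.card_le_card_of_injective _ inj
    rw [Nat.card_prod, hP, hΩ, Nat.card_coe_set_eq] at this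
    exact Nat.le_of_mul_le_mul_right this hp.pos
  · obtain ⟨g, rfl⟩ := isConj_iff.1 (isConj_inv h3 h hP o hs)
    rw [← smul_fixedBy, Set.ncard_smul_set]

end CF.Deg3p
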